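import Mathlib
import Cfsg.Agent.Lib.Helper78.TN.Defs

/-!
# S4414, package [P-BC] (helper24): fixed points commute with extension of scalars
-/

set_option autoImplicit false

namespace Cfsg.Agent.Lib.Helper24.TN

open Cfsg.Agent.Lib.Helper78.TN
open scoped TensorProduct

universe u v w x

section

variable {k : Type u} [Field k] {F : Type v} [Field F] [Algebra k F] {G : Type w} [Group G]
  {V : Type x} [AddCommGroup V] [Module k V]

/-- the map `m ↦ (t ↦ ρ t m - m)`, whose kernel is the fixed space of `T` -/
noncomputable def fixMap (ρ : Representation k G V) (T : Subgroup G) : V →ₗ[k] (T → V) :=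
  LinearMap.pi (fun t => ρ (t : G) - LinearMap.id)

theorem fixMap_apply (ρ : Representation k G V) (T : Subgroup G) (m : V) (t : T) :
    fixMap ρ T m t = ρ (t : G) m - m := rfl

theorem exact_fixMap (ρ : Representation k G V) (T : Subgroup G) :
    Function.Exact (fixedSub ρ (T : Set G)).subtype (fixMap ρ T) := by
  intro m
  constructor
  · intro h
    refine ⟨⟨m, ?_⟩, rfl⟩
    intro t ht
    have := congrFun h ⟨t, ht⟩
    rw [fixMap_apply] at this
    exact sub_eq_zero.mp this
  · rintro ⟨⟨m', hm'⟩, rfl⟩
    funext t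
    rw [fixMap_apply]
    exact sub_eq_zero.mpr (hm' t t.2)

theorem baseChange_le_fixed (ρ : Representation k G V) (T : Subgroup G) :
    (fixedSub ρ (T : Set G)).baseChange F ≤ fixedSub (bc F ρ) (T : Set G) := by
  rintro z ⟨y, rfl⟩
  intro t ht
  induction y using TensorProduct.induction_on with
  | zero => simp
  | tmul a m =>
    rw [LinearMap.baseChange_tmul]
    show bc F ρ t (a ⊗ₜ[k] (m : V)) = a ⊗ₜ[k] (m : V)
    rw [bc_tmul, m.2 t ht]
  | add y1 y2 h1 h2 => rw [map_add, map_add, h1, h2]

theorem fixed_le_baseChange (ρ : Representation k G V) (T : Subgroup G) [Finite T] :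
    fixedSub (bc F ρ) (T : Set G) ≤ (fixedSub ρ (T : Set G)).baseChange F := by
  classical
  cases nonempty_fintype T
  intro z hz
  have hex := Module.Flat.lTensor_exact F (exact_fixMap ρ T)
  have key : ∀ (z' : F ⊗[k] V) (t : T),
      (TensorProduct.piRight k k F (fun _ : T => V)) ((fixMap ρ T).lTensor F z') t
        = bc F ρ (t : G) z' - z' := by
    intro z' t
    induction z' using TensorProduct.induction_on with
    | zero => simp
    | tmul a m =>
      rw [LinearMap.lTensor_tmul, TensorProduct.piRight_apply, TensorProduct.piRightHom_tmul,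
        bc_tmul]
      show a ⊗ₜ[k] (fixMap ρ T m t) = _
      rw [fixMap_apply, TensorProduct.tmul_sub]
    | add a b ha hb =>
      rw [map_add, map_add, Pi.add_apply, ha, hb, map_add]
      abel
  have h0 : (fixMap ρ T).lTensor F z = 0 := by
    apply (TensorProduct.piRight k k F (fun _ : T => V)).injective
    rw [map_zero]
    funext t
    rw [key, hz t t.2, sub_self]
    rfl
  obtain ⟨y, hy⟩ := (hex z).mp h0
  refine ⟨y, ?_⟩
  rw [← hy]
  exact congrFun (LinearMap.baseChange_eq_ltensor (A := F) (fixedSub ρ (T : Set G)).subtype) y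

end

/-- **[P-BC]** -/
theorem lemBC : LemBC.{u, v, w, x} := by
  intro k _ F _ _ G _ V _ _ _ ρ T _
  have hEq : fixedSub (bc F ρ) (T : Set G) = (fixedSub ρ (T : Set G)).baseChange F :=
    le_antisymm (fixed_le_baseChange ρ T) (baseChange_le_fixed ρ T)
  constructor
  · rw [hEq, ← (Submodule.toBaseChange.toLinearEquiv F (fixedSub ρ (T : Set G))).finrank_eq]
    exact Module.finrank_baseChange
  · intro Q hQ y hy z hz
    rw [hEq] at hz ⊢
    obtain ⟨w, rfl⟩ := hz
    induction w using TensorProduct.induction_on with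
    | zero => simp
    | tmul a m =>
      rw [LinearMap.baseChange_tmul]
      show bc F ρ y (a ⊗ₜ[k] (m : V)) ∈ _
      rw [bc_tmul]
      exact Submodule.tmul_mem_baseChange_of_mem a (hQ y hy m m.2)
    | add w1 w2 h1 h2 =>
      rw [map_add, map_add]
      exact Submodule.add_mem _ h1 h2

end Cfsg.Agent.Lib.Helper24.TN
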